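import Mathlib

set_option autoImplicit false

namespace Cfsg.Agent.Lib.Helper93.SN17

section N3
variable {Ω : Type*} [Finite Ω] {H : Subgroup (Equiv.Perm Ω)}

/-- a `3`-element with a fixed point is trivial. -/
theorem n3_fpf (hΩ : Nat.card Ω = 18)
    (h3 : ∀ g ∈ H, ∀ a b c : Ω, a ≠ b → b ≠ c → a ≠ c → g a = a → g b = b → g c = c → g = 1)
    (t : Equiv.Perm Ω) (ht : t ∈ H) (ht9 : t ^ 9 = 1) (α : Ω) (hα : t α = α) : t = 1 := by
  have : Fact (Nat.Prime 3) := ⟨Nat.prime_three⟩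
  have hp : IsPGroup 3 (Subgroup.zpowers t) := by
    have h1 : orderOf t ∣ 3 ^ 2 := orderOf_dvd_of_pow_eq_one (by norm_num; exact ht9)
    obtain ⟨k, -, hk⟩ := (Nat.dvd_prime_pow Nat.prime_three).1 h1
    exact IsPGroup.of_card (n := k) (by rw [Nat.card_zpowers, hk])
  have hmod := hp.card_modEq_card_fixedPoints Ω
  rw [hΩ] at hmod
  have hfix : ∀ ω : Ω, ω ∈ MulAction.fixedPoints (Subgroup.zpowers t) Ω ↔ t ω = ω := by
    intro ω
    constructor
    · intro h
      exact h ⟨t, Subgroup.mem_zpowers t⟩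
    · rintro h ⟨g, hg⟩
      obtain ⟨k, rfl⟩ := Subgroup.mem_zpowers_iff.1 hg
      change (t ^ k) ω = ω
      exact Equiv.Perm.zpow_apply_eq_self_of_apply_eq_self h k
  have hmem : α ∈ MulAction.fixedPoints (Subgroup.zpowers t) Ω := (hfix α).2 hα
  have hpos : 0 < (MulAction.fixedPoints (Subgroup.zpowers t) Ω).ncard :=
    (Set.ncard_pos (Set.toFinite _)).2 ⟨α, hmem⟩
  rw [Nat.card_coe_set_eq] at hmod
  have h2 : 2 < (MulAction.fixedPoints (Subgroup.zpowers t) Ω).ncard := by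
    have := hmod
    unfold Nat.ModEq at this
    omega
  obtain ⟨a, ha, b, hb, c, hc, hab, hac, hbc⟩ := (Set.two_lt_ncard (Set.toFinite _)).1 h2
  exact h3 t ht a b c hab hbc hac ((hfix a).1 ha) ((hfix b).1 hb) ((hfix c).1 hc)

theorem n3_of (hΩ : Nat.card Ω = 18)
    (h3 : ∀ g ∈ H, ∀ a b c : Ω, a ≠ b → b ≠ c → a ≠ c → g a = a → g b = b → g c = c → g = 1)
    (hcard : Nat.card H = 2448 ∨ Nat.card H = 4896) (hy : ∃ y : H, orderOf y = 9)
    (h : Nat.card (Sylow 3 H) ≤ 136) : Nat.card (Sylow 3 H) = 136 := by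
  have : Fact (Nat.Prime 3) := ⟨Nat.prime_three⟩
  obtain ⟨y, hy⟩ := hy
  -- the Sylow subgroup
  have hRp : IsPGroup 3 (Subgroup.zpowers y) :=
    IsPGroup.of_card (n := 2) (by rw [Nat.card_zpowers, hy]; norm_num)
  obtain ⟨P, hP⟩ := hRp.exists_le_sylow
  have hPeq : Subgroup.zpowers y = (P : Subgroup H) := by
    apply Subgroup.eq_of_le_of_card_ge hP
    obtain ⟨k, hk⟩ := IsPGroup.iff_card.1 P.2
    have hdvd : Nat.card (P : Subgroup H) ∣ Nat.card H := Subgroup.card_subgroup_dvd_card _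
    rw [Nat.card_zpowers, hy, hk]
    rw [hk] at hdvd
    have hk2 : k < 3 := by
      by_contra hge
      push Not at hge
      have h27 : 3 ^ 3 ∣ Nat.card H := (pow_dvd_pow 3 hge).trans hdvd
      rcases hcard with h1 | h1 <;> rw [h1] at h27 <;> revert h27 <;> decide
    calc 3 ^ k ≤ 3 ^ 2 := Nat.pow_le_pow_right (by norm_num) (by omega)
      _ = 9 := by norm_num
  have hcyc : IsCyclic (P : Subgroup H) := by
    rw [← hPeq]; infer_instance
  have hPcard : Nat.card (P : Subgroup H) = 9 := by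
    rw [← hPeq, Nat.card_zpowers, hy]
  set N := Subgroup.normalizer ((P : Subgroup H) : Set H) with hN
  set C := Subgroup.centralizer ((P : Subgroup H) : Set H) with hC
  have hn : Nat.card (Sylow 3 H) = N.index := P.card_eq_index_normalizer
  have hmod : Nat.card (Sylow 3 H) ≡ 1 [MOD 3] := card_sylow_modEq_one 3 H
  have key := Subgroup.card_dvd_of_injective _
    (QuotientGroup.kerLift_injective (P : Subgroup H).normalizerMonoidHom)
  rw [Subgroup.normalizerMonoidHom_ker, ← Subgroup.index, ← Subgroup.relIndex, hcyc.card_mulAut,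
    hPcard] at key
  have h6 : Nat.totient 9 = 6 := by decide
  rw [h6] at key
  have hCN : C ≤ N := Subgroup.centralizer_le_normalizer _
  have hmul : C.relIndex N * Nat.card C = Nat.card N := by
    rw [Subgroup.relIndex, ← Nat.card_congr (Subgroup.subgroupOfEquivOfLe hCN).toEquiv]
    exact Subgroup.index_mul_card _
  have hNH : Nat.card N * N.index = Nat.card H := N.card_mul_index
  -- `P ≤ C`
  have hPC : (P : Subgroup H) ≤ C := by
    rw [← hPeq]
    intro a ha
    rw [hC, ← hPeq, Subgroup.mem_centralizer_iff]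
    intro b hb
    obtain ⟨i, rfl⟩ := Subgroup.mem_zpowers_iff.1 ha
    obtain ⟨j, rfl⟩ := Subgroup.mem_zpowers_iff.1 hb
    rw [← zpow_add, ← zpow_add, add_comm]
  have h9 : 9 ∣ Nat.card C := by
    rw [← hPcard]; exact Subgroup.card_dvd_of_le hPC
  -- semiregularity of `C`
  have hne : Nonempty Ω := by
    by_contra hcon
    rw [not_nonempty_iff] at hcon
    rw [Nat.card_of_isEmpty] at hΩ
    omega
  obtain ⟨α⟩ := hne
  have hy9 : (y : Equiv.Perm Ω) ^ 9 = 1 := by
    have := pow_orderOf_eq_one y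
    rw [hy] at this
    exact congrArg Subtype.val this
  have hyord : orderOf (y : Equiv.Perm Ω) = 9 := by rw [Subgroup.orderOf_coe, hy]
  have hy1 : ∀ ω : Ω, (y : Equiv.Perm Ω) ω ≠ ω := by
    intro ω hω
    have h1 := n3_fpf hΩ h3 (y : Equiv.Perm Ω) y.2 hy9 ω hω
    rw [h1, orderOf_one] at hyord
    omega
  have hy2 : ∀ ω : Ω, (y : Equiv.Perm Ω) ((y : Equiv.Perm Ω) ω) ≠ ω := by
    intro ω hω
    have h1 := n3_fpf hΩ h3 ((y : Equiv.Perm Ω) ^ 2) (H.pow_mem y.2 2)
      (by rw [← pow_mul, mul_comm, pow_mul, hy9, one_pow]) ω (by rw [pow_two]; exact hω)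
    have h2 := orderOf_dvd_of_pow_eq_one h1
    rw [hyord] at h2
    revert h2
    decide
  have hsemi : ∀ c ∈ C, (c : Equiv.Perm Ω) α = α → c = 1 := by
    intro c hc hcα
    have hcomm : (y : Equiv.Perm Ω) * (c : Equiv.Perm Ω) = (c : Equiv.Perm Ω) * (y : Equiv.Perm Ω) := by
      have h1 := (Subgroup.mem_centralizer_iff.1 hc) y (hPeq ▸ Subgroup.mem_zpowers y)
      exact congrArg Subtype.val h1
    have hc1 : ∀ ω : Ω, (c : Equiv.Perm Ω) ω = ω →
        (c : Equiv.Perm Ω) ((y : Equiv.Perm Ω) ω) = (y : Equiv.Perm Ω) ω := by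
      intro ω hω
      have h1 := congrArg (fun σ : Equiv.Perm Ω => σ ω) hcomm
      simp only [Equiv.Perm.mul_apply] at h1
      rw [← h1, hω]
    apply Subtype.ext
    exact h3 (c : Equiv.Perm Ω) c.2 α ((y : Equiv.Perm Ω) α) ((y : Equiv.Perm Ω) ((y : Equiv.Perm Ω) α))
      (hy1 α).symm (hy1 _).symm (hy2 α).symm hcα (hc1 α hcα) (hc1 _ (hc1 α hcα))
  have hC18 : Nat.card C ≤ 18 := by
    rw [← hΩ]
    apply Nat.card_le_card_of_injective (fun c : C => ((c : H) : Equiv.Perm Ω) α)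
    intro c c' hcc
    have h1 : ((c'⁻¹ * c : C) : H) = 1 := by
      apply hsemi _ (c'⁻¹ * c : C).2
      change ((c' : H) : Equiv.Perm Ω)⁻¹ (((c : H) : Equiv.Perm Ω) α) = α
      rw [Equiv.Perm.inv_eq_iff_eq]
      exact hcc
    have h2 : c'⁻¹ * c = 1 := Subtype.ext h1
    exact (inv_mul_eq_one.1 h2).symm
  -- arithmetic
  obtain ⟨d, hd⟩ := h9
  have hCpos : 0 < Nat.card C := Nat.card_pos
  have hr6 : C.relIndex N ≤ 6 := Nat.le_of_dvd (by norm_num) key
  rw [hn] at h hmod ⊢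
  set n := N.index with hnn
  set r := C.relIndex N with hrr
  rw [← hmul, hd] at hNH
  unfold Nat.ModEq at hmod
  have hd2 : d ≤ 2 := by omega
  have hd0 : 0 < d := by omega
  have hr0 : 0 < r := by
    rcases Nat.eq_zero_or_pos r with h0 | h0
    · rw [h0] at key
      have := Nat.eq_zero_of_zero_dvd key
      omega
    · exact h0
  clear_value n r
  interval_cases d <;> interval_cases r <;> rcases hcard with h1 | h1 <;> rw [h1] at hNH <;>
    omega

end N3

end Cfsg.Agent.Lib.Helper93.SN17
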